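import Mathlib
import Cfsg.Agent.Lib.H07.CD.Fi22TGD
set_option autoImplicit false
set_option maxRecDepth 1000000
namespace Cfsg.Agent.H07.CD.Fi22T
open Cfsg.Agent.H07.Coset Cfsg.Agent.H07.SimpleT Cfsg.Spor
noncomputable section
theorem c_lvl0_0 : allR (guard 2816 (lvlOK T wordS levS E0 2816 cJ cn 0 1)) 12 (0 * 2 ^ 12) = true := by decide +kernel
theorem c_lvl1_0 : allR (guard 1680 (lvlOK T wordS levS E1 1680 cJ cn 1 162)) 11 (0 * 2 ^ 11) = true := by decide +kernel
theorem c_lvl2_0 : allR (guard 243 (lvlOK T wordS levS E2 243 cJ cn 2 2832)) 8 (0 * 2 ^ 8) = true := by decide +kernel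
theorem c_lvl3_0 : allR (guard 16 (lvlOK T wordS levS E3 16 cJ cn 3 3105)) 5 (0 * 2 ^ 5) = true := by decide +kernel
theorem c_xp_0 : allR (guard cn (fun i => Nat.beq (powW T xW 13 i) i)) 10 (0 * 2 ^ 10) = true := by decide +kernel
theorem c_xp_1 : allR (guard cn (fun i => Nat.beq (powW T xW 13 i) i)) 10 (1 * 2 ^ 10) = true := by decide +kernel
theorem c_xp_2 : allR (guard cn (fun i => Nat.beq (powW T xW 13 i) i)) 10 (2 * 2 ^ 10) = true := by decide +kernel
theorem c_xp_3 : allR (guard cn (fun i => Nat.beq (powW T xW 13 i) i)) 10 (3 * 2 ^ 10) = true := by decide +kernel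

end

end Cfsg.Agent.H07.CD.Fi22T
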