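import Mathlib
import Cfsg.Agent.Lib.H07.CD.Fi23ClC0
import Cfsg.Agent.Lib.H07.CD.Fi23ClC1
import Cfsg.Agent.Lib.H07.CD.Fi23ClC2
import Cfsg.Agent.Lib.H07.CD.Fi23ClC3
import Cfsg.Agent.Lib.H07.CD.Fi23ClC4
import Cfsg.Agent.Lib.H07.CD.Fi23ClC5
set_option autoImplicit false
set_option maxRecDepth 1000000
namespace Cfsg.Agent.H07.CD.Fi23Cl
open Cfsg.Agent.H07.Coset Cfsg.Agent.H07.SimpleT Cfsg.Agent.H07.TT3 Cfsg.Agent.H07.CD.Fi23T Cfsg.Spor
noncomputable section

theorem hlt0 : (∀ y ∈ wz, y < ncol) ∧ ∀ iv ∈ ivs, (∀ y ∈ (W iv).1, y < ncol) ∧ (∀ y ∈ (W iv).2, y < ncol) ∧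
    walk T 0 (W iv).1 = iv.1 := by
  have h := c_lt
  simp only [Bool.and_eq_true, List.all_eq_true] at h
  refine ⟨fun y hy => blt_lt (h.1 y hy), ?_⟩
  intro iv hiv
  obtain ⟨⟨h1, h2⟩, h3⟩ := h.2 iv hiv
  refine ⟨fun y hy => blt_lt (h1 y hy), fun y hy => blt_lt (h2 y hy), ?_⟩
  rw [walkR_eq] at h3
  exact Nat.eq_of_beq_eq_true h3

abbrev GG : Type := PresentedGroup rels

abbrev HH : Subgroup GG := (Subgroup.closure cS).map (PresentedGroup.mk rels)

instance : Finite GG := Cfsg.Agent.H07.CD.Fi23Final.hub.1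

instance : IsSimpleGroup GG := Cfsg.Agent.H07.CD.Fi23Final.result.1

theorem inj_rho : Function.Injective (rhoT tabRep.hb tabRep.hi tabRep.hrel) :=
  (card_and_inj (rhoT tabRep.hb tabRep.hi tabRep.hrel) Cfsg.Agent.H07.CD.Fi23Final.hub.2 card_lower).2

/-- The transposition. -/
def zz : GG := eltW rels letter wz

theorem hT_lt (i y : ℕ) (hi : i < cn) (hy : y < ncol) : T i y < cn := by
  have h := tabRep.hb (letter y).1 (letter y).2 i hi
  rwa [hletter y hy] at h

theorem hwalk_lt (w : List ℕ) (hw : ∀ y ∈ w, y < ncol) (i : ℕ) (hi : i < cn) : walk T i w < cn := by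
  induction w generalizing i with
  | nil => exact hi
  | cons y w ih =>
    exact ih (fun z hz => hw z (List.mem_cons_of_mem _ hz)) _ (hT_lt i y hi (hw y List.mem_cons_self))

theorem hword_lt (l : List (Fi23.Gen × Bool)) (i : ℕ) (hi : i < cn) : walk T i (wordOf col l) < cn := by
  unfold wordOf
  generalize l.reverse = l'
  induction l' generalizing i with
  | nil => exact hi
  | cons p l' ih => exact ih _ (tabRep.hb p.1 (!p.2) i hi)

theorem hZ (i : ℕ) (hi : i < cn) : walk T i wz = Zt i := by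
  have h1 := hs_Z i hi
  unfold F_Z at h1
  rw [walkR_eq] at h1
  exact Nat.eq_of_beq_eq_true h1

theorem hZb (i : ℕ) (hi : i < cn) : Zt i < cn := by
  rw [← hZ i hi]
  exact hwalk_lt wz hlt0.1 i hi

theorem hEf (iv : ℕ × ℕ) (hiv : iv ∈ ivs) (i : ℕ) (hi : i < cn) : walk T i (Ew iv) = Ef iv i := by
  have h1 := hwalk_lt _ (hlt0.2 iv hiv).2.1 i hi
  have h2 := hZb _ h1
  have h3 := hwalk_lt _ (hlt0.2 iv hiv).1 _ h2
  unfold Ew Ef
  rw [walk_append, walk_append, walk_append, hZ _ h1, hZ _ h3, walkR_eq, walkR_eq]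

theorem hEfb (iv : ℕ × ℕ) (hiv : iv ∈ ivs) (i : ℕ) (hi : i < cn) : Ef iv i < cn := by
  have h1 := hwalk_lt _ (hlt0.2 iv hiv).2.1 i hi
  have h2 := hZb _ h1
  have h3 := hwalk_lt _ (hlt0.2 iv hiv).1 _ h2
  unfold Ef
  rw [walkR_eq, walkR_eq]
  exact hZb _ h3

theorem main : Subgroup.centralizer ({zz} : Set GG) = HH ∧ Nat.card (conjugatesOf zz) = cn ∧
    Cfsg.IsThreeTranspositionClass (conjugatesOf zz) := by
  refine class_main tabRep hletter inj_rho htrans cS hSfix index_eq wz hlt0.1 ?_ ?_ ?_ ?_ ?_ ivs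
    Cfsg.Agent.H07.CD.Fi23Final.hreach ?_ W (fun iv hiv => (hlt0.2 iv hiv).1) (fun iv hiv => (hlt0.2 iv hiv).2.1)
    (fun iv hiv => (hlt0.2 iv hiv).2.2) ?_ ?_ ?_
  · intro s hs i hi
    have h1 := hs_comm i hi
    unfold F_comm at h1
    rw [List.all_eq_true] at h1
    have h2 := h1 _ (hSW s hs).1
    rw [walkR_eq, walkR_eq] at h2
    rw [hZ i hi, hZ _ (hword_lt _ i hi)]
    exact Nat.eq_of_beq_eq_true h2
  · intro i hi
    have h1 := hs_zz i hi
    unfold F_zz at h1
    rw [hZ i hi, hZ _ (hZb i hi)]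
    exact Nat.eq_of_beq_eq_true h1
  · exact 1
  · have h := c_i0
    simp only [Bool.and_eq_true] at h
    exact blt_lt h.1
  · have h := c_i0
    simp only [Bool.and_eq_true, Bool.not_eq_true'] at h
    intro h2
    have h3 := h.2
    rw [hZ 1 (blt_lt h.1)] at h2
    rw [h2] at h3
    have h4 : Nat.beq 1 1 = true := by decide
    rw [h4] at h3
    exact Bool.noConfusion h3
  · intro i
    by_cases h0 : i.1 = 0
    · exact Or.inl h0
    · right
      have h1 : i.1 < 31671 := i.2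
      have h3 : i.1 < 28161 ∨ 28161 ≤ i.1 := Nat.lt_or_ge _ _
      rcases h3 with h3 | h3
      · exact ⟨_, List.mem_cons_self, (by show 1 ≤ i.1; omega), h3⟩
      · exact ⟨_, List.mem_cons_of_mem _ List.mem_cons_self, h3, (by show i.1 < 31671; omega)⟩
  · intro iv hiv i hi
    have h1 := hs_w3 i hi
    unfold F_w3 at h1
    rw [List.all_eq_true] at h1
    have h2 := h1 iv hiv
    rw [walkR_eq, walkR_eq] at h2
    exact Nat.eq_of_beq_eq_true h2
  · intro iv hiv
    simp only [ivs, List.mem_cons, List.not_mem_nil, or_false] at hiv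
    rcases hiv with rfl|rfl
    · right
      intro i hi
      have h1 := hs_ord0 i hi
      unfold F_3 at h1
      show walk T i ((Ew (1, 28161) ++ Ew (1, 28161)) ++ Ew (1, 28161)) = i
      rw [walk_append, walk_append, hEf (1, 28161) (by simp [ivs]) i hi, hEf (1, 28161) (by simp [ivs]) _ (hEfb (1, 28161) (by simp [ivs]) i hi),
        hEf (1, 28161) (by simp [ivs]) _ (hEfb (1, 28161) (by simp [ivs]) _ (hEfb (1, 28161) (by simp [ivs]) i hi))]
      exact Nat.eq_of_beq_eq_true h1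
    · left
      intro i hi
      have h1 := hs_ord1 i hi
      unfold F_2 at h1
      show walk T i (Ew (28161, 31671) ++ Ew (28161, 31671)) = i
      rw [walk_append, hEf (28161, 31671) (by simp [ivs]) i hi, hEf (28161, 31671) (by simp [ivs]) _ (hEfb (28161, 31671) (by simp [ivs]) i hi)]
      exact Nat.eq_of_beq_eq_true h1
  · intro iv hiv
    simp only [ivs, List.mem_cons, List.not_mem_nil, or_false] at hiv
    rcases hiv with rfl|rfl
    · have h := c_mv0
      simp only [Bool.and_eq_true, Bool.not_eq_true'] at h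
      refine ⟨0, blt_lt h.1, ?_⟩
      intro h2
      have h3 := h.2
      change walk T 0 (Ew (1, 28161)) = 0 at h2
      rw [hEf (1, 28161) (by simp [ivs]) 0 (blt_lt h.1)] at h2
      rw [h2] at h3
      have h4 : Nat.beq 0 0 = true := by decide
      rw [h4] at h3
      exact Bool.noConfusion h3
    · have h := c_mv1
      simp only [Bool.and_eq_true, Bool.not_eq_true'] at h
      refine ⟨1, blt_lt h.1, ?_⟩
      intro h2
      have h3 := h.2
      change walk T 1 (Ew (28161, 31671)) = 1 at h2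
      rw [hEf (28161, 31671) (by simp [ivs]) 1 (blt_lt h.1)] at h2
      rw [h2] at h3
      have h4 : Nat.beq 1 1 = true := by decide
      rw [h4] at h3
      exact Bool.noConfusion h3

end

end Cfsg.Agent.H07.CD.Fi23Cl
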