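import Mathlib
import Cfsg.Agent.Lib.H07.CD.Fi23TGD
set_option autoImplicit false
set_option maxRecDepth 1000000
namespace Cfsg.Agent.H07.CD.Fi23T
open Cfsg.Agent.H07.Coset Cfsg.Agent.H07.SimpleT Cfsg.Spor
noncomputable section
theorem c_lvl0_0 : allR (guard 28160 (lvlOK T wordS levS E0 28160 cJ cn 0 1)) 14 (0 * 2 ^ 14) = true := by decide +kernel
theorem c_lvl0_1 : allR (guard 28160 (lvlOK T wordS levS E0 28160 cJ cn 0 1)) 14 (1 * 2 ^ 14) = true := by decide +kernel
theorem c_lvl1_0 : allR (guard 21840 (lvlOK T wordS levS E1 21840 cJ cn 1 203)) 13 (0 * 2 ^ 13) = true := by decide +kernel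
theorem c_lvl1_1 : allR (guard 21840 (lvlOK T wordS levS E1 21840 cJ cn 1 203)) 13 (1 * 2 ^ 13) = true := by decide +kernel
theorem c_lvl1_2 : allR (guard 21840 (lvlOK T wordS levS E1 21840 cJ cn 1 203)) 13 (2 * 2 ^ 13) = true := by decide +kernel
theorem c_lvl2_0 : allR (guard 7776 (lvlOK T wordS levS E2 7776 cJ cn 2 1230)) 12 (0 * 2 ^ 12) = true := by decide +kernel
theorem c_lvl2_1 : allR (guard 7776 (lvlOK T wordS levS E2 7776 cJ cn 2 1230)) 12 (1 * 2 ^ 12) = true := by decide +kernel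
theorem c_lvl3_0 : allR (guard 27 (lvlOK T wordS levS E3 27 cJ cn 3 29195)) 5 (0 * 2 ^ 5) = true := by decide +kernel

end

end Cfsg.Agent.H07.CD.Fi23T
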