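import Mathlib
import Cfsg.Agent.Lib.H07.CD.Fi23TG
import Cfsg.Agent.Lib.H07.CD.Fi23X
import Cfsg.Agent.Lib.H07.CD.Fi23L1
import Cfsg.Agent.Lib.H07.CD.Fi23L2
import Cfsg.Agent.Lib.H07.CD.Fi23L3
import Cfsg.Agent.Lib.H07.CD.Fi23L4
import Cfsg.Agent.Lib.H07.CD.Fi23L5
import Cfsg.Agent.Lib.H07.SimpleT2
import Cfsg.Agent.Lib.H07.SimpleT3
set_option autoImplicit false
set_option maxRecDepth 100000
namespace Cfsg.Agent.H07.CD.Fi23Final
open Cfsg.Agent.H07.Coset Cfsg.Agent.H07.SimpleT Cfsg.Spor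
noncomputable section

abbrev GG : Type := PresentedGroup (coxRelators Fi23.edges ∪ {r | r ∈ Fi23.extra})

theorem hub : Finite GG ∧ Nat.card GG ≤ 4089470473293004800 := by
  have h4 := level_bound Fi23L5.phi Fi23L5.hphi Fi23L5.hup (⊥ : Subgroup GG) (by
    intro s hs
    exact absurd hs (Set.notMem_empty s))
  haveI := h4.1
  have c4 := h4.2
  rw [Subgroup.card_bot, Nat.mul_one] at c4
  have h3 := level_bound Fi23L4.phi Fi23L4.hphi Fi23L4.hup (Subgroup.closure (Set.range Fi23L5.phi)) (by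
    intro s hs
    simp only [Fi23L4.cS, Set.mem_insert_iff, Set.mem_singleton_iff] at hs
    rcases hs with rfl|rfl|rfl|rfl|rfl
    · rw [show Fi23L4.LP.b = FreeGroup.of Fi23L4.LP.Gen.b from rfl, FreeGroup.lift_apply_of]
      exact Subgroup.subset_closure ⟨.b, rfl⟩
    · rw [show Fi23L4.LP.c = FreeGroup.of Fi23L4.LP.Gen.c from rfl, FreeGroup.lift_apply_of]
      exact Subgroup.subset_closure ⟨.c, rfl⟩
    · rw [show Fi23L4.LP.d = FreeGroup.of Fi23L4.LP.Gen.d from rfl, FreeGroup.lift_apply_of]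
      exact Subgroup.subset_closure ⟨.d, rfl⟩
    · rw [show Fi23L4.LP.e = FreeGroup.of Fi23L4.LP.Gen.e from rfl, FreeGroup.lift_apply_of]
      exact Subgroup.subset_closure ⟨.e, rfl⟩
    · rw [show Fi23L4.LP.f = FreeGroup.of Fi23L4.LP.Gen.f from rfl, FreeGroup.lift_apply_of]
      exact Subgroup.subset_closure ⟨.f, rfl⟩)
  haveI := h3.1
  have c3 := le_trans h3.2 (Nat.mul_le_mul_left _ c4)
  have h2 := level_bound Fi23L3.phi Fi23L3.hphi Fi23L3.hup (Subgroup.closure (Set.range Fi23L4.phi)) (by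
    intro s hs
    simp only [Fi23L3.cS, Set.mem_insert_iff, Set.mem_singleton_iff] at hs
    rcases hs with rfl|rfl|rfl|rfl|rfl|rfl
    · rw [show Fi23L3.LP.b = FreeGroup.of Fi23L3.LP.Gen.b from rfl, FreeGroup.lift_apply_of]
      exact Subgroup.subset_closure ⟨.b, rfl⟩
    · rw [show Fi23L3.LP.c = FreeGroup.of Fi23L3.LP.Gen.c from rfl, FreeGroup.lift_apply_of]
      exact Subgroup.subset_closure ⟨.c, rfl⟩
    · rw [show Fi23L3.LP.d = FreeGroup.of Fi23L3.LP.Gen.d from rfl, FreeGroup.lift_apply_of]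
      exact Subgroup.subset_closure ⟨.d, rfl⟩
    · rw [show Fi23L3.LP.e = FreeGroup.of Fi23L3.LP.Gen.e from rfl, FreeGroup.lift_apply_of]
      exact Subgroup.subset_closure ⟨.e, rfl⟩
    · rw [show Fi23L3.LP.f = FreeGroup.of Fi23L3.LP.Gen.f from rfl, FreeGroup.lift_apply_of]
      exact Subgroup.subset_closure ⟨.f, rfl⟩
    · rw [show Fi23L3.LP.h = FreeGroup.of Fi23L3.LP.Gen.h from rfl, FreeGroup.lift_apply_of]
      exact Subgroup.subset_closure ⟨.h, rfl⟩)
  haveI := h2.1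
  have c2 := le_trans h2.2 (Nat.mul_le_mul_left _ c3)
  have h1 := level_bound Fi23L2.phi Fi23L2.hphi Fi23L2.hup (Subgroup.closure (Set.range Fi23L3.phi)) (by
    intro s hs
    simp only [Fi23L2.cS, Set.mem_insert_iff, Set.mem_singleton_iff] at hs
    rcases hs with rfl|rfl|rfl|rfl|rfl|rfl|rfl
    · rw [show Fi23L2.LP.b = FreeGroup.of Fi23L2.LP.Gen.b from rfl, FreeGroup.lift_apply_of]
      exact Subgroup.subset_closure ⟨.b, rfl⟩
    · rw [show Fi23L2.LP.c = FreeGroup.of Fi23L2.LP.Gen.c from rfl, FreeGroup.lift_apply_of]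
      exact Subgroup.subset_closure ⟨.c, rfl⟩
    · rw [show Fi23L2.LP.d = FreeGroup.of Fi23L2.LP.Gen.d from rfl, FreeGroup.lift_apply_of]
      exact Subgroup.subset_closure ⟨.d, rfl⟩
    · rw [show Fi23L2.LP.e = FreeGroup.of Fi23L2.LP.Gen.e from rfl, FreeGroup.lift_apply_of]
      exact Subgroup.subset_closure ⟨.e, rfl⟩
    · rw [show Fi23L2.LP.f = FreeGroup.of Fi23L2.LP.Gen.f from rfl, FreeGroup.lift_apply_of]
      exact Subgroup.subset_closure ⟨.f, rfl⟩
    · rw [show Fi23L2.LP.g = FreeGroup.of Fi23L2.LP.Gen.g from rfl, FreeGroup.lift_apply_of]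
      exact Subgroup.subset_closure ⟨.g, rfl⟩
    · rw [show Fi23L2.LP.h = FreeGroup.of Fi23L2.LP.Gen.h from rfl, FreeGroup.lift_apply_of]
      exact Subgroup.subset_closure ⟨.h, rfl⟩)
  haveI := h1.1
  have c1 := le_trans h1.2 (Nat.mul_le_mul_left _ c2)
  have h0 := level_bound Fi23L1.phi Fi23L1.hphi Fi23L1.hup (Subgroup.closure (Set.range Fi23L2.phi)) (by
    intro s hs
    simp only [Fi23L1.cS, Set.mem_insert_iff, Set.mem_singleton_iff] at hs
    rcases hs with rfl|rfl|rfl|rfl|rfl|rfl|rfl|rfl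
    · rw [show Fi23L1.LP.b = FreeGroup.of Fi23L1.LP.Gen.b from rfl, FreeGroup.lift_apply_of]
      exact Subgroup.subset_closure ⟨.b, rfl⟩
    · rw [show Fi23L1.LP.c = FreeGroup.of Fi23L1.LP.Gen.c from rfl, FreeGroup.lift_apply_of]
      exact Subgroup.subset_closure ⟨.c, rfl⟩
    · rw [show Fi23L1.LP.d = FreeGroup.of Fi23L1.LP.Gen.d from rfl, FreeGroup.lift_apply_of]
      exact Subgroup.subset_closure ⟨.d, rfl⟩
    · rw [show Fi23L1.LP.e = FreeGroup.of Fi23L1.LP.Gen.e from rfl, FreeGroup.lift_apply_of]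
      exact Subgroup.subset_closure ⟨.e, rfl⟩
    · rw [show Fi23L1.LP.f = FreeGroup.of Fi23L1.LP.Gen.f from rfl, FreeGroup.lift_apply_of]
      exact Subgroup.subset_closure ⟨.f, rfl⟩
    · rw [show Fi23L1.LP.g = FreeGroup.of Fi23L1.LP.Gen.g from rfl, FreeGroup.lift_apply_of]
      exact Subgroup.subset_closure ⟨.g, rfl⟩
    · rw [show Fi23L1.LP.h = FreeGroup.of Fi23L1.LP.Gen.h from rfl, FreeGroup.lift_apply_of]
      exact Subgroup.subset_closure ⟨.h, rfl⟩
    · rw [show Fi23L1.LP.i = FreeGroup.of Fi23L1.LP.Gen.i from rfl, FreeGroup.lift_apply_of]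
      exact Subgroup.subset_closure ⟨.i, rfl⟩)
  haveI := h0.1
  have c0 := le_trans h0.2 (Nat.mul_le_mul_left _ c1)
  have ht := level_bound (fun x => (PresentedGroup.of x : GG)) (lift_top _) Fi23T.hup (Subgroup.closure (Set.range Fi23L1.phi)) (by
    intro s hs
    simp only [Fi23T.cS, Set.mem_insert_iff, Set.mem_singleton_iff] at hs
    rcases hs with rfl|rfl|rfl|rfl|rfl|rfl|rfl|rfl|rfl
    · rw [show Fi23.a = FreeGroup.of Fi23.Gen.a from rfl, FreeGroup.lift_apply_of]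
      exact Subgroup.subset_closure ⟨.a, rfl⟩
    · rw [show Fi23.b = FreeGroup.of Fi23.Gen.b from rfl, FreeGroup.lift_apply_of]
      exact Subgroup.subset_closure ⟨.b, rfl⟩
    · rw [show Fi23.c = FreeGroup.of Fi23.Gen.c from rfl, FreeGroup.lift_apply_of]
      exact Subgroup.subset_closure ⟨.c, rfl⟩
    · rw [show Fi23.d = FreeGroup.of Fi23.Gen.d from rfl, FreeGroup.lift_apply_of]
      exact Subgroup.subset_closure ⟨.d, rfl⟩
    · rw [show Fi23.e = FreeGroup.of Fi23.Gen.e from rfl, FreeGroup.lift_apply_of]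
      exact Subgroup.subset_closure ⟨.e, rfl⟩
    · rw [show Fi23.f = FreeGroup.of Fi23.Gen.f from rfl, FreeGroup.lift_apply_of]
      exact Subgroup.subset_closure ⟨.f, rfl⟩
    · rw [show Fi23.g = FreeGroup.of Fi23.Gen.g from rfl, FreeGroup.lift_apply_of]
      exact Subgroup.subset_closure ⟨.g, rfl⟩
    · rw [show Fi23.h = FreeGroup.of Fi23.Gen.h from rfl, FreeGroup.lift_apply_of]
      exact Subgroup.subset_closure ⟨.h, rfl⟩
    · rw [show Fi23.i = FreeGroup.of Fi23.Gen.i from rfl, FreeGroup.lift_apply_of]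
      exact Subgroup.subset_closure ⟨.i, rfl⟩)
  have ct := le_trans ht.2 (Nat.mul_le_mul_left _ c0)
  have hf := top_of_level _ ⟨ht.1, ct⟩
  exact ⟨hf.1, le_trans hf.2 (by decide)⟩

open Fi23T in
theorem hreach : ∀ iv ∈ ([(1, 28161), (28161, 31671)] : List (ℕ × ℕ)), ∀ i : Fin cn, iv.1 ≤ i.1 → i.1 < iv.2 →
    ∃ h : iv.1 < cn, ∃ k ∈ (Subgroup.closure cS).map (PresentedGroup.mk rels),
      rhoT tabRep.hb tabRep.hi tabRep.hrel k ⟨iv.1, h⟩ = i := by
  intro iv hiv i h1 h2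
  simp only [List.mem_cons, List.not_mem_nil, or_false] at hiv
  rcases hiv with rfl|rfl
  · exact ⟨by decide, interval_reach tabRep.hb tabRep.hi tabRep.hrel SW hSW' 1 28161 (by decide) (by decide)
      (orbOK_cl hs_orb0 (by decide)) (orbOK_desc hs_orb0 (by decide)) ⟨1, by decide⟩ rfl i h1 h2⟩
  · exact ⟨by decide, interval_reach tabRep.hb tabRep.hi tabRep.hrel SW hSW' 28161 31671 (by decide) (by decide)
      (orbOK_cl hs_orb1 (by decide)) (orbOK_desc hs_orb1 (by decide)) ⟨28161, by decide⟩ rfl i h1 h2⟩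

open Fi23T in
theorem hblock : ∀ O : Finset (Fin cn), 0 ∈ O →
    (∀ k ∈ (Subgroup.closure cS).map (PresentedGroup.mk rels), ∀ i ∈ O, rhoT tabRep.hb tabRep.hi tabRep.hrel k i ∈ O) →
    O.card ∣ cn → O.card = 1 ∨ O.card = cn :=
  hblock_of_intervals _ _ [(1, 28161), (28161, 31671)] (by decide) (by decide) hreach

open Fi23T in
theorem result : IsSimpleGroup GG ∧ Nat.card GG = 4089470473293004800 := by
  haveI : Finite GG := hub.1
  obtain ⟨hc, hinj⟩ := card_and_inj (rhoT tabRep.hb tabRep.hi tabRep.hrel) hub.2 card_lower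
  refine ⟨?_, hc⟩
  haveI : Nontrivial GG := Finite.one_lt_card_iff_nontrivial.mp (by rw [hc]; decide)
  have hr : Nat.card (rhoT tabRep.hb tabRep.hi tabRep.hrel).range ≤ cn * ∏ i ∈ Finset.range cL, szS i := by
    rw [← c_prod, ← hc]
    exact Nat.card_le_card_of_surjective _ (rhoT tabRep.hb tabRep.hi tabRep.hrel).rangeRestrict_surjective
  have hx : (PresentedGroup.mk _ Fi23X.xF : GG) ^ 17 = 1 :=
    pow_eq_one_of_base (ncol := ncol) (letter := letter) tabRep hinj hletter wordS levS cJ cL baseS szS ES htrans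
      sgs_hw sgs_h0 sgs_hbase sgs_hfix sgs_hlvl hr Fi23X.xF xW c_xW 17 c_xp0 (fun i hi => by
        have h := c_xpb
        rw [List.all_eq_true] at h
        exact h i (List.mem_range.mpr hi))
  exact simple_of_data (rhoT tabRep.hb tabRep.hi tabRep.hrel) hinj htrans _
    (rhoT_fix tabRep.hb tabRep.hi tabRep.hrel hSfix) hblock (p := 17) (a := 1) (by norm_num) (by decide)
    (by rw [hc]; decide) _ hx
    (fun N hN hxN => normal_top_of_collapse (rels_append _ _ _) Fi23X.hup.1 Fi23X.hup.2 N hxN)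

end

end Cfsg.Agent.H07.CD.Fi23Final
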