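import Mathlib
import Cfsg.Agent.Lib.H07.CD.Fi23TM
set_option autoImplicit false
set_option maxRecDepth 1000000
namespace Cfsg.Agent.H07.CD.Fi23T
open Cfsg.Agent.H07.Coset Cfsg.Spor
noncomputable section
theorem c_rel_48 : allR F_rel 8 (48 * 2 ^ 8) = true := by decide +kernel
theorem c_rel_49 : allR F_rel 8 (49 * 2 ^ 8) = true := by decide +kernel
theorem c_rel_50 : allR F_rel 8 (50 * 2 ^ 8) = true := by decide +kernel
theorem c_rel_51 : allR F_rel 8 (51 * 2 ^ 8) = true := by decide +kernel
theorem c_rel_52 : allR F_rel 8 (52 * 2 ^ 8) = true := by decide +kernel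
theorem c_rel_53 : allR F_rel 8 (53 * 2 ^ 8) = true := by decide +kernel
theorem c_rel_54 : allR F_rel 8 (54 * 2 ^ 8) = true := by decide +kernel
theorem c_rel_55 : allR F_rel 8 (55 * 2 ^ 8) = true := by decide +kernel
theorem c_rel_56 : allR F_rel 8 (56 * 2 ^ 8) = true := by decide +kernel
theorem c_rel_57 : allR F_rel 8 (57 * 2 ^ 8) = true := by decide +kernel
theorem c_rel_58 : allR F_rel 8 (58 * 2 ^ 8) = true := by decide +kernel

end

end Cfsg.Agent.H07.CD.Fi23T
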