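import Mathlib
import Cfsg.Agent.Lib.H07.CD.Fi23TM
set_option autoImplicit false
set_option maxRecDepth 1000000
namespace Cfsg.Agent.H07.CD.Fi23T
open Cfsg.Agent.H07.Coset Cfsg.Spor
noncomputable section
theorem c_rel_59 : allR F_rel 8 (59 * 2 ^ 8) = true := by decide +kernel
theorem c_rel_60 : allR F_rel 8 (60 * 2 ^ 8) = true := by decide +kernel
theorem c_rel_61 : allR F_rel 8 (61 * 2 ^ 8) = true := by decide +kernel
theorem c_rel_62 : allR F_rel 8 (62 * 2 ^ 8) = true := by decide +kernel
theorem c_rel_63 : allR F_rel 8 (63 * 2 ^ 8) = true := by decide +kernel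
theorem c_rel_64 : allR F_rel 8 (64 * 2 ^ 8) = true := by decide +kernel
theorem c_rel_65 : allR F_rel 8 (65 * 2 ^ 8) = true := by decide +kernel
theorem c_rel_66 : allR F_rel 8 (66 * 2 ^ 8) = true := by decide +kernel
theorem c_rel_67 : allR F_rel 8 (67 * 2 ^ 8) = true := by decide +kernel
theorem c_rel_68 : allR F_rel 8 (68 * 2 ^ 8) = true := by decide +kernel
theorem c_rel_69 : allR F_rel 8 (69 * 2 ^ 8) = true := by decide +kernel

end

end Cfsg.Agent.H07.CD.Fi23T
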