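import Mathlib
import Cfsg.Agent.Lib.H07.CD.Fi23TM
set_option autoImplicit false
set_option maxRecDepth 1000000
namespace Cfsg.Agent.H07.CD.Fi23T
open Cfsg.Agent.H07.Coset Cfsg.Spor
noncomputable section
theorem c_rel_70 : allR F_rel 8 (70 * 2 ^ 8) = true := by decide +kernel
theorem c_rel_71 : allR F_rel 8 (71 * 2 ^ 8) = true := by decide +kernel
theorem c_rel_72 : allR F_rel 8 (72 * 2 ^ 8) = true := by decide +kernel
theorem c_rel_73 : allR F_rel 8 (73 * 2 ^ 8) = true := by decide +kernel
theorem c_rel_74 : allR F_rel 8 (74 * 2 ^ 8) = true := by decide +kernel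
theorem c_rel_75 : allR F_rel 8 (75 * 2 ^ 8) = true := by decide +kernel
theorem c_rel_76 : allR F_rel 8 (76 * 2 ^ 8) = true := by decide +kernel
theorem c_rel_77 : allR F_rel 8 (77 * 2 ^ 8) = true := by decide +kernel
theorem c_rel_78 : allR F_rel 8 (78 * 2 ^ 8) = true := by decide +kernel
theorem c_rel_79 : allR F_rel 8 (79 * 2 ^ 8) = true := by decide +kernel
theorem c_rel_80 : allR F_rel 8 (80 * 2 ^ 8) = true := by decide +kernel

end

end Cfsg.Agent.H07.CD.Fi23T
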