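import Mathlib
import Cfsg.Agent.Lib.H07.CD.Fi23TM
set_option autoImplicit false
set_option maxRecDepth 1000000
namespace Cfsg.Agent.H07.CD.Fi23T
open Cfsg.Agent.H07.Coset Cfsg.Spor
noncomputable section
theorem c_rel_81 : allR F_rel 8 (81 * 2 ^ 8) = true := by decide +kernel
theorem c_rel_82 : allR F_rel 8 (82 * 2 ^ 8) = true := by decide +kernel
theorem c_rel_83 : allR F_rel 8 (83 * 2 ^ 8) = true := by decide +kernel
theorem c_rel_84 : allR F_rel 8 (84 * 2 ^ 8) = true := by decide +kernel
theorem c_rel_85 : allR F_rel 8 (85 * 2 ^ 8) = true := by decide +kernel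
theorem c_rel_86 : allR F_rel 8 (86 * 2 ^ 8) = true := by decide +kernel
theorem c_rel_87 : allR F_rel 8 (87 * 2 ^ 8) = true := by decide +kernel
theorem c_rel_88 : allR F_rel 8 (88 * 2 ^ 8) = true := by decide +kernel
theorem c_rel_89 : allR F_rel 8 (89 * 2 ^ 8) = true := by decide +kernel
theorem c_rel_90 : allR F_rel 8 (90 * 2 ^ 8) = true := by decide +kernel
theorem c_rel_91 : allR F_rel 8 (91 * 2 ^ 8) = true := by decide +kernel

end

end Cfsg.Agent.H07.CD.Fi23T
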