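import Mathlib
import Cfsg.Agent.Lib.H07.CD.Fi23TM
set_option autoImplicit false
set_option maxRecDepth 1000000
namespace Cfsg.Agent.H07.CD.Fi23T
open Cfsg.Agent.H07.Coset Cfsg.Spor
noncomputable section
theorem c_rel_92 : allR F_rel 8 (92 * 2 ^ 8) = true := by decide +kernel
theorem c_rel_93 : allR F_rel 8 (93 * 2 ^ 8) = true := by decide +kernel
theorem c_rel_94 : allR F_rel 8 (94 * 2 ^ 8) = true := by decide +kernel
theorem c_rel_95 : allR F_rel 8 (95 * 2 ^ 8) = true := by decide +kernel
theorem c_rel_96 : allR F_rel 8 (96 * 2 ^ 8) = true := by decide +kernel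
theorem c_rel_97 : allR F_rel 8 (97 * 2 ^ 8) = true := by decide +kernel
theorem c_rel_98 : allR F_rel 8 (98 * 2 ^ 8) = true := by decide +kernel
theorem c_rel_99 : allR F_rel 8 (99 * 2 ^ 8) = true := by decide +kernel
theorem c_rel_100 : allR F_rel 8 (100 * 2 ^ 8) = true := by decide +kernel
theorem c_rel_101 : allR F_rel 8 (101 * 2 ^ 8) = true := by decide +kernel
theorem c_rel_102 : allR F_rel 8 (102 * 2 ^ 8) = true := by decide +kernel

end

end Cfsg.Agent.H07.CD.Fi23T
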