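import Mathlib
import Cfsg.Agent.Lib.H07.CD.Fi23TM
set_option autoImplicit false
set_option maxRecDepth 1000000
namespace Cfsg.Agent.H07.CD.Fi23T
open Cfsg.Agent.H07.Coset Cfsg.Spor
noncomputable section
theorem c_rel_114 : allR F_rel 8 (114 * 2 ^ 8) = true := by decide +kernel
theorem c_rel_115 : allR F_rel 8 (115 * 2 ^ 8) = true := by decide +kernel
theorem c_rel_116 : allR F_rel 8 (116 * 2 ^ 8) = true := by decide +kernel
theorem c_rel_117 : allR F_rel 8 (117 * 2 ^ 8) = true := by decide +kernel
theorem c_rel_118 : allR F_rel 8 (118 * 2 ^ 8) = true := by decide +kernel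
theorem c_rel_119 : allR F_rel 8 (119 * 2 ^ 8) = true := by decide +kernel
theorem c_rel_120 : allR F_rel 8 (120 * 2 ^ 8) = true := by decide +kernel
theorem c_rel_121 : allR F_rel 8 (121 * 2 ^ 8) = true := by decide +kernel
theorem c_rel_122 : allR F_rel 8 (122 * 2 ^ 8) = true := by decide +kernel
theorem c_rel_123 : allR F_rel 8 (123 * 2 ^ 8) = true := by decide +kernel
theorem c_desc_0 : allR F_desc 12 (0 * 2 ^ 12) = true := by decide +kernel
theorem c_desc_1 : allR F_desc 12 (1 * 2 ^ 12) = true := by decide +kernel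

end

end Cfsg.Agent.H07.CD.Fi23T
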