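import Mathlib
import Cfsg.Agent.Lib.H07.CD.Fi23TM
set_option autoImplicit false
set_option maxRecDepth 1000000
namespace Cfsg.Agent.H07.CD.Fi23T
open Cfsg.Agent.H07.Coset Cfsg.Spor
noncomputable section
theorem c_orb1_2 : allR F_orb1 13 (2 * 2 ^ 13) = true := by decide +kernel
theorem c_orb1_3 : allR F_orb1 13 (3 * 2 ^ 13) = true := by decide +kernel

end

end Cfsg.Agent.H07.CD.Fi23T
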