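import Mathlib
import Cfsg.Agent.Lib.H07.CD.Fi23TM
set_option autoImplicit false
set_option maxRecDepth 1000000
namespace Cfsg.Agent.H07.CD.Fi23T
open Cfsg.Agent.H07.Coset Cfsg.Spor
noncomputable section
theorem c_rel_37 : allR F_rel 8 (37 * 2 ^ 8) = true := by decide +kernel
theorem c_rel_38 : allR F_rel 8 (38 * 2 ^ 8) = true := by decide +kernel
theorem c_rel_39 : allR F_rel 8 (39 * 2 ^ 8) = true := by decide +kernel
theorem c_rel_40 : allR F_rel 8 (40 * 2 ^ 8) = true := by decide +kernel
theorem c_rel_41 : allR F_rel 8 (41 * 2 ^ 8) = true := by decide +kernel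
theorem c_rel_42 : allR F_rel 8 (42 * 2 ^ 8) = true := by decide +kernel
theorem c_rel_43 : allR F_rel 8 (43 * 2 ^ 8) = true := by decide +kernel
theorem c_rel_44 : allR F_rel 8 (44 * 2 ^ 8) = true := by decide +kernel
theorem c_rel_45 : allR F_rel 8 (45 * 2 ^ 8) = true := by decide +kernel
theorem c_rel_46 : allR F_rel 8 (46 * 2 ^ 8) = true := by decide +kernel
theorem c_rel_47 : allR F_rel 8 (47 * 2 ^ 8) = true := by decide +kernel

end

end Cfsg.Agent.H07.CD.Fi23T
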